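import Mathlib
import Cfsg.Agent.Lib.Helper86.Kul2.Defs

/-! FARM Kul2 (helper86), piece K1. -/

set_option autoImplicit false

namespace Cfsg.Agent.Lib.Helper98.Kul2

open Cfsg.Agent.Lib.Helper86.Kul2

variable {G : Type*} [Group G]

theorem even_card_of_invol {α : Type*} [Finite α] (Ψ : α → α) (h1 : ∀ a, Ψ (Ψ a) = a)
    (h2 : ∀ a, Ψ a ≠ a) : Even (Nat.card α) := by
  classical
  have := Fintype.ofFinite α
  let σ : Equiv.Perm α := Function.Involutive.toPerm Ψ h1
  have hσ : σ ^ 2 = 1 := by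
    ext a
    change Ψ (Ψ a) = a
    exact h1 a
  have h := Equiv.Perm.two_dvd_card_support hσ
  have hs : σ.support = Finset.univ := by
    ext a
    simp only [Equiv.Perm.mem_support, Finset.mem_univ, iff_true]
    exact h2 a
  rw [hs, Finset.card_univ] at h
  rw [Nat.card_eq_fintype_card]
  exact even_iff_two_dvd.2 h

theorem abs_even [Finite G] (S : Set G) (τ : G → G) (h1 : ∀ g ∈ S, τ g ∈ S)
    (h2 : ∀ g ∈ S, ∀ h ∈ S, Subgroup.zpowers h = Subgroup.zpowers (τ g) →
      Subgroup.zpowers (τ h) = Subgroup.zpowers g)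
    (h3 : ∀ g ∈ S, Subgroup.zpowers (τ g) ≠ Subgroup.zpowers g) :
    Even ((Subgroup.zpowers '' S).ncard) := by
  classical
  rw [← Nat.card_coe_set_eq]
  let Ψ : ↥(Subgroup.zpowers '' S) → ↥(Subgroup.zpowers '' S) := fun Z =>
    ⟨Subgroup.zpowers (τ Z.2.choose), ⟨τ Z.2.choose, h1 _ Z.2.choose_spec.1, rfl⟩⟩
  apply even_card_of_invol Ψ
  · intro Z
    apply Subtype.ext
    have hg := Z.2.choose_spec
    have hh := (Ψ Z).2.choose_spec
    change Subgroup.zpowers (τ (Ψ Z).2.choose) = Z.1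
    exact (h2 _ hg.1 _ hh.1 hh.2).trans hg.2
  · intro Z hZ
    have hg := Z.2.choose_spec
    have h4 : Subgroup.zpowers (τ Z.2.choose) = Z.1 := congrArg Subtype.val hZ
    exact h3 _ hg.1 (h4.trans hg.2.symm)

end Cfsg.Agent.Lib.Helper98.Kul2
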