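import Mathlib
import Cfsg.Agent.Lib.Helper86.Kul2.Defs

/-! FARM Kul2 (helper86), piece K2. -/

set_option autoImplicit false

namespace Cfsg.Agent.Lib.Helper98.Kul2

open Cfsg.Agent.Lib.Helper86.Kul2

variable {G : Type*} [Group G]

theorem zpowers_eq_of_mem [Finite G] {x g : G} (hx : x ∈ Subgroup.zpowers g)
    (ho : orderOf x = orderOf g) : Subgroup.zpowers x = Subgroup.zpowers g :=
  Subgroup.eq_of_le_of_card_ge (Subgroup.zpowers_le.2 hx)
    (by rw [Nat.card_zpowers, Nat.card_zpowers, ho])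

theorem eq_pow_of_mem [Finite G] {z g : G} {b : ℕ} (ho : orderOf g = 2 ^ (b + 1))
    (hz : z ∈ Subgroup.zpowers g) (z2 : z * z = 1) (z1 : z ≠ 1) : g ^ 2 ^ b = z := by
  have h1 := (isOfFinOrder_of_finite g).mem_powers_iff_mem_zpowers.2 hz
  obtain ⟨k, rfl⟩ := Submonoid.mem_powers_iff _ _ |>.1 h1
  have h2 : g ^ (2 * k) = 1 := by rw [two_mul, pow_add]; exact z2
  have h3 : 2 ^ (b + 1) ∣ 2 * k := ho ▸ orderOf_dvd_of_pow_eq_one h2
  have h4 : 2 ^ b ∣ k := by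
    rw [pow_succ, mul_comm] at h3
    exact Nat.dvd_of_mul_dvd_mul_left (by norm_num) h3
  obtain ⟨j, rfl⟩ := h4
  have hw : (g ^ 2 ^ b) ^ 2 = 1 := by
    rw [← pow_mul, ← pow_succ, ← ho]; exact pow_orderOf_eq_one g
  rw [pow_mul] at z1 ⊢
  rcases Nat.even_or_odd' j with ⟨m, rfl | rfl⟩
  · exfalso; apply z1; rw [pow_mul, hw, one_pow]
  · rw [pow_succ, pow_mul, hw, one_pow, one_mul]

end Cfsg.Agent.Lib.Helper98.Kul2
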