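import Mathlib
import Cfsg.Agent.Lib.Helper86.Kul2.Defs
import Cfsg.Agent.Lib.Helper98.Kul2.K1
import Cfsg.Agent.Lib.Helper98.Kul2.K2

/-! FARM Kul2 (helper86), piece K3. -/

set_option autoImplicit false

namespace Cfsg.Agent.Lib.Helper98.Kul2

open Cfsg.Agent.Lib.Helper86.Kul2

variable {G : Type*} [Group G]

theorem pow_two_pow_eq_one {z : G} (z2 : z * z = 1) {m : ℕ} (hm : 1 ≤ m) : z ^ 2 ^ m = 1 := by
  obtain ⟨k, rfl⟩ : ∃ k, m = k + 1 := ⟨m - 1, by omega⟩
  rw [pow_succ, mul_comm, pow_mul, pow_two, z2, one_pow]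

/-- the common part of K3 and K4: right multiplication by `c` -/
theorem even_of_shift [Finite G] (S : Set G) (c : G) (n : ℕ) (hord : ∀ g ∈ S, orderOf g = n)
    (h1 : ∀ g ∈ S, g * c ∈ S)
    (hstar : ∀ g ∈ S, ∀ x ∈ Subgroup.zpowers (g * c),
      x ∈ Subgroup.zpowers g ∨ x * c ∈ Subgroup.zpowers g)
    (hc : ∀ g ∈ S, c ∉ Subgroup.zpowers g) : Even ((Subgroup.zpowers '' S).ncard) := by
  have key : ∀ g ∈ S, g * c ∉ Subgroup.zpowers g := by
    intro g hg hmem
    apply hc g hg
    have := Subgroup.mul_mem _ (Subgroup.inv_mem _ (Subgroup.mem_zpowers g)) hmem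
    rwa [inv_mul_cancel_left] at this
  apply abs_even S (fun g => g * c) h1
  · intro g hg h hh heq
    have hmem : h ∈ Subgroup.zpowers (g * c) := heq ▸ Subgroup.mem_zpowers h
    rcases hstar g hg h hmem with h2 | h2
    · exfalso
      have h3 := zpowers_eq_of_mem h2 ((hord h hh).trans (hord g hg).symm)
      apply key g hg
      rw [← h3, heq]
      exact Subgroup.mem_zpowers _
    · exact zpowers_eq_of_mem h2 ((hord _ (h1 h hh)).trans (hord g hg).symm)
  · intro g hg heq
    apply key g hg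
    have heq' : Subgroup.zpowers (g * c) = Subgroup.zpowers g := heq
    rw [← heq']
    exact Subgroup.mem_zpowers _

theorem even_X0 [Finite G] {z e : G} (d : FD G z e) {b : ℕ} (hb : 2 ≤ b) :
    Even ((Subgroup.zpowers '' X0 z b).ncard) := by
  obtain ⟨b', rfl⟩ : ∃ b', b = b' + 1 := ⟨b - 1, by omega⟩
  have hb' : 1 ≤ b' := by omega
  apply even_of_shift (X0 z (b' + 1)) z (2 ^ (b' + 1)) (fun g hg => hg.1)
  · rintro g ⟨hg1, hg2⟩
    have hcomm : Commute g z := d.zc g
    have hp1 : (g * z) ^ 2 ^ b' = g ^ 2 ^ b' := by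
      rw [hcomm.mul_pow, pow_two_pow_eq_one d.z2 hb', mul_one]
    have ho : orderOf (g * z) = 2 ^ (b' + 1) := by
      apply orderOf_eq_prime_pow
      · rw [hp1]
        apply pow_ne_one_of_lt_orderOf (by positivity)
        rw [hg1]
        exact Nat.pow_lt_pow_right (by norm_num) (by omega)
      · rw [hcomm.mul_pow, pow_two_pow_eq_one d.z2 (by omega), mul_one, ← hg1]
        exact pow_orderOf_eq_one g
    refine ⟨ho, ?_⟩
    intro hz
    have := eq_pow_of_mem ho hz d.z2 d.z1
    rw [hp1] at this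
    apply hg2
    rw [← this]
    exact Subgroup.npow_mem_zpowers g _
  · rintro g - x hx
    obtain ⟨k, rfl⟩ := Subgroup.mem_zpowers_iff.1 hx
    have hcomm : Commute g z := d.zc g
    rw [hcomm.mul_zpow]
    rcases Int.even_or_odd' k with ⟨m, hm | hm⟩
    · left
      have : z ^ k = 1 := by rw [hm, zpow_mul, zpow_two, d.z2, one_zpow]
      rw [this, mul_one]
      exact Subgroup.zpow_mem_zpowers g k
    · right
      have : z ^ k = z := by
        rw [hm, zpow_add, zpow_mul, zpow_two, d.z2, one_zpow, one_mul, zpow_one]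
      rw [this, mul_assoc, d.z2, mul_one]
      exact Subgroup.zpow_mem_zpowers g k
  · exact fun g hg => hg.2

end Cfsg.Agent.Lib.Helper98.Kul2
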