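import Mathlib
import Cfsg.Agent.Lib.Helper86.Kul2.Defs
import Cfsg.Agent.Lib.Helper98.Kul2.K1
import Cfsg.Agent.Lib.Helper98.Kul2.K2
import Cfsg.Agent.Lib.Helper98.Kul2.K3

/-! FARM Kul2 (helper86), piece K4. -/

set_option autoImplicit false

namespace Cfsg.Agent.Lib.Helper98.Kul2

open Cfsg.Agent.Lib.Helper86.Kul2

variable {G : Type*} [Group G]

/-- the square of `g * e` -/
theorem K4_sq {z e : G} (d : FD G z e) {b' : ℕ} {g : G} (hg3 : b' + 2 = 2 → g * e = e * g) :
    ∃ u : G, (g * e) * (g * e) = g * g * u ∧ (u = 1 ∨ (u = z ∧ 1 ≤ b')) := by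
  by_cases hc : g * e = e * g
  · refine ⟨1, ?_, Or.inl rfl⟩
    calc g * e * (g * e) = g * (e * g) * e := by group
      _ = g * (g * e) * e := by rw [hc]
      _ = g * g * (e * e) := by group
      _ = g * g * 1 := by rw [d.e2]
  · refine ⟨z, ?_, Or.inr ⟨rfl, ?_⟩⟩
    · have h1 : g * e * g⁻¹ = e * z := by
        rcases d.cj g with h | h
        · exfalso
          apply hc
          calc g * e = g * e * g⁻¹ * g := by group
            _ = e * g := by rw [h]
        · exact h
      have h2 : g * e = e * g * z := by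
        calc g * e = g * e * g⁻¹ * g := by group
          _ = e * z * g := by rw [h1]
          _ = e * (z * g) := by group
          _ = e * (g * z) := by rw [d.zc g]
          _ = e * g * z := by group
      have h3 : e * g = g * e * z := by
        rw [h2, mul_assoc (e * g), d.z2, mul_one]
      calc g * e * (g * e) = g * (e * g) * e := by group
        _ = g * (g * e * z) * e := by rw [h3]
        _ = g * g * e * (z * e) := by group
        _ = g * g * e * (e * z) := by rw [d.zc e]
        _ = g * g * (e * e) * z := by group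
        _ = g * g * z := by rw [d.e2, mul_one]
    · by_contra hlt
      exact hc (hg3 (by omega))

theorem even_XS [Finite G] {z e : G} (d : FD G z e) {b : ℕ} (hb : 2 ≤ b) :
    Even ((Subgroup.zpowers '' XS z e b).ncard) := by
  obtain ⟨b', rfl⟩ : ∃ b', b = b' + 2 := ⟨b - 2, by omega⟩
  apply even_of_shift (XS z e (b' + 2)) e (2 ^ (b' + 2)) (fun g hg => hg.1)
  · rintro g ⟨hg1, hg2, hg3⟩
    have hz : g ^ 2 ^ (b' + 1) = z := eq_pow_of_mem hg1 hg2 d.z2 d.z1
    obtain ⟨u, hu, hu'⟩ := K4_sq d hg3
    have hupow : u ^ 2 ^ b' = 1 := by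
      rcases hu' with rfl | ⟨rfl, hb1⟩
      · exact one_pow _
      · exact pow_two_pow_eq_one d.z2 hb1
    have hucomm : Commute (g * g) u := by
      rcases hu' with rfl | ⟨rfl, -⟩
      · exact Commute.one_right _
      · exact d.zc _
    have hp : (g * e) ^ 2 ^ (b' + 1) = z := by
      rw [pow_succ, mul_comm, pow_mul, pow_two, hu, hucomm.mul_pow, hupow, mul_one, ← pow_two,
        ← pow_mul, ← hz, pow_succ, mul_comm]
    have ho : orderOf (g * e) = 2 ^ (b' + 1 + 1) := by
      apply orderOf_eq_prime_pow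
      · rw [hp]; exact d.z1
      · rw [pow_succ, pow_mul, hp, pow_two, d.z2]
    refine ⟨ho, ?_, ?_⟩
    · rw [← hp]; exact Subgroup.npow_mem_zpowers _ _
    · intro h2
      calc g * e * e = e * g * e := by rw [hg3 h2]
        _ = e * (g * e) := mul_assoc _ _ _
  · rintro g ⟨hg1, hg2, hg3⟩ x hx
    obtain ⟨u, hu, hu'⟩ := K4_sq d hg3
    have hw : (g * e) * (g * e) ∈ Subgroup.zpowers g := by
      rw [hu]
      apply Subgroup.mul_mem _ (Subgroup.mul_mem _ (Subgroup.mem_zpowers g) (Subgroup.mem_zpowers g))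
      rcases hu' with rfl | ⟨rfl, -⟩
      · exact Subgroup.one_mem _
      · exact hg2
    have h1 := (isOfFinOrder_of_finite (g * e)).mem_powers_iff_mem_zpowers.2 hx
    obtain ⟨n, rfl⟩ := Submonoid.mem_powers_iff _ _ |>.1 h1
    rcases Nat.even_or_odd' n with ⟨m, rfl | rfl⟩
    · left
      rw [pow_mul, pow_two]
      exact Subgroup.pow_mem _ hw m
    · right
      rw [pow_succ, pow_mul, pow_two]
      have : (g * e * (g * e)) ^ m * (g * e) * e = (g * e * (g * e)) ^ m * g := by
        calc (g * e * (g * e)) ^ m * (g * e) * e = (g * e * (g * e)) ^ m * (g * (e * e)) := by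
              simp only [mul_assoc]
          _ = (g * e * (g * e)) ^ m * g := by rw [d.e2, mul_one]
      rw [this]
      exact Subgroup.mul_mem _ (Subgroup.pow_mem _ hw m) (Subgroup.mem_zpowers g)
  · rintro g ⟨hg1, hg2, -⟩ he
    have hz : g ^ 2 ^ (b' + 1) = z := eq_pow_of_mem hg1 hg2 d.z2 d.z1
    have he' : g ^ 2 ^ (b' + 1) = e := eq_pow_of_mem hg1 he d.e2 d.e1
    exact d.ez (he'.symm.trans hz)

end Cfsg.Agent.Lib.Helper98.Kul2
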