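import Mathlib
import Cfsg.Agent.Lib.Helper86.Kul2.Defs
import Cfsg.Agent.Lib.Helper98.Kul2.K1
import Cfsg.Agent.Lib.Helper98.Kul2.K2

/-! FARM Kul2 (helper86), piece K6. -/

set_option autoImplicit false

namespace Cfsg.Agent.Lib.Helper98.Kul2

open Cfsg.Agent.Lib.Helper86.Kul2

variable {G : Type*} [Group G]

theorem K6_mul {z e : G} (d : FD G z e) {x y : G} (hx : InE z e x) (hy : InE z e y) :
    InE z e (x * y) := by
  have hze : z * e = e * z := (d.zc e).symm
  have hee : ∀ w, e * (e * w) = w := fun w => by rw [← mul_assoc, d.e2, one_mul]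
  have hzz : ∀ w, z * (z * w) = w := fun w => by rw [← mul_assoc, d.z2, one_mul]
  have hzew : ∀ w, z * (e * w) = e * (z * w) := fun w => by rw [← mul_assoc, hze, mul_assoc]
  rcases hx with rfl | rfl | rfl | rfl <;> rcases hy with rfl | rfl | rfl | rfl <;>
    simp [InE, mul_assoc, d.e2, d.z2, hze, hee, hzz, hzew]

theorem K6_XN_iff [Finite G] {z e : G} (d : FD G z e) (g : G) :
    g ∈ XN z e ↔ g * g = z ∧ g * e ≠ e * g := by
  constructor
  · rintro ⟨h1, h2, h3⟩
    have := eq_pow_of_mem (b := 1) h1 h2 d.z2 d.z1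
    rw [pow_one, pow_two] at this
    exact ⟨this, h3⟩
  · rintro ⟨h1, h3⟩
    refine ⟨?_, ?_, h3⟩
    · apply orderOf_eq_prime_pow (p := 2) (n := 1)
      · rw [pow_one, pow_two, h1]; exact d.z1
      · rw [show (2 : ℕ) ^ (1 + 1) = 2 * 2 by norm_num, pow_mul, pow_two g, h1, pow_two, d.z2]
    · rw [← h1, ← pow_two]; exact Subgroup.npow_mem_zpowers g 2

theorem K6_sq {z e : G} (d : FD G z e) {g : G} (hc : g * e ≠ e * g) :
    (g * e) * (g * e) = g * g * z := by
  have h1 : g * e * g⁻¹ = e * z := by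
    rcases d.cj g with h | h
    · exfalso
      apply hc
      calc g * e = g * e * g⁻¹ * g := by group
        _ = e * g := by rw [h]
    · exact h
  have h2 : g * e = e * g * z := by
    calc g * e = g * e * g⁻¹ * g := by group
      _ = e * z * g := by rw [h1]
      _ = e * (z * g) := by group
      _ = e * (g * z) := by rw [d.zc g]
      _ = e * g * z := by group
  have h3 : e * g = g * e * z := by
    rw [h2, mul_assoc (e * g), d.z2, mul_one]
  calc g * e * (g * e) = g * (e * g) * e := by group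
    _ = g * (g * e * z) * e := by rw [h3]
    _ = g * g * e * (z * e) := by group
    _ = g * g * e * (e * z) := by rw [d.zc e]
    _ = g * g * (e * e) * z := by group
    _ = g * g * z := by rw [d.e2, mul_one]

theorem K6_gen [Finite G] {z e : G} (d : FD G z e) {t x : G} (ht : t * t = z)
    (hx : x ∈ Subgroup.zpowers t) (hxx : x * x = z) : x = t ∨ x = t * z := by
  have h1 := (isOfFinOrder_of_finite t).mem_powers_iff_mem_zpowers.2 hx
  obtain ⟨n, rfl⟩ := Submonoid.mem_powers_iff _ _ |>.1 h1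
  have hzm : ∀ m : ℕ, z ^ m = 1 ∨ z ^ m = z := by
    intro m
    rcases Nat.even_or_odd' m with ⟨k, rfl | rfl⟩
    · left; rw [pow_mul, pow_two, d.z2, one_pow]
    · right; rw [pow_succ, pow_mul, pow_two, d.z2, one_pow, one_mul]
  rcases Nat.even_or_odd' n with ⟨m, rfl | rfl⟩
  · exfalso
    rw [pow_mul, pow_two, ht] at hxx
    rcases hzm m with h | h
    · rw [h, one_mul] at hxx; exact d.z1 hxx.symm
    · rw [h, d.z2] at hxx; exact d.z1 hxx.symm
  · rw [pow_succ, pow_mul, pow_two, ht]
    rcases hzm m with h | h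
    · left; rw [h, one_mul]
    · right; rw [h]; exact (d.zc t).symm

theorem K6_A {z e : G} (d : FD G z e) {g ε : G} (hg : g * g = z) (hge : g * e ≠ e * g)
    (hε : InE z e ε) (h : (g * ε) * (g * ε) = z) : ε = 1 ∨ ε = z := by
  rcases hε with h1 | h1 | h1 | h1
  · left; exact h1
  · right; exact h1
  · exfalso
    rw [h1, K6_sq d hge, hg, d.z2] at h
    exact d.z1 h.symm
  · exfalso
    have : g * (e * z) * (g * (e * z)) = (g * e) * (g * e) * (z * z) := by
      calc g * (e * z) * (g * (e * z)) = g * e * (z * (g * e)) * z := by group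
        _ = g * e * ((g * e) * z) * z := by rw [d.zc (g * e)]
        _ = _ := by group
    rw [h1, this, K6_sq d hge, hg, d.z2, mul_one] at h
    exact d.z1 h.symm

open Classical in
/-- the involution on `XN` -/
noncomputable def K6_tau (z e c0 g : G) : G :=
  if (g * c0) * (g * c0) = z then g * c0 else g * c0 * e

theorem K6_tau_spec {z e c0 : G} (d : FD G z e) (hc : IsC0 z e c0) {g : G}
    (hg : g * g = z) (hge : g * e ≠ e * g) :
    ∃ ε, InE z e ε ∧ K6_tau z e c0 g = g * c0 * ε ∧ K6_tau z e c0 g * K6_tau z e c0 g = z ∧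
      K6_tau z e c0 g * e ≠ e * K6_tau z e c0 g := by
  obtain ⟨hc1, hc2, hc3, hc4⟩ := hc
  obtain ⟨y, hy⟩ : ∃ y, y = g * c0 := ⟨_, rfl⟩
  have hye : y * e ≠ e * y := by
    intro h
    apply hge
    have : g * e * c0 = e * g * c0 := by
      calc g * e * c0 = g * (e * c0) := mul_assoc _ _ _
        _ = g * (c0 * e) := by rw [hc1]
        _ = y * e := by rw [hy, mul_assoc]
        _ = e * y := h
        _ = e * g * c0 := by rw [hy, mul_assoc]
    exact mul_right_cancel this
  have hyy : InE z e (y * y) := by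
    have : y * y = (g * g) * ((g⁻¹ * c0 * g⁻¹⁻¹ * c0⁻¹) * (c0 * c0)) := by rw [hy]; group
    rw [this]
    exact K6_mul d (Or.inr (Or.inl hg)) (K6_mul d (hc4 g⁻¹) hc3)
  have hcl : y * y = 1 ∨ y * y = z := by
    rcases hyy with h | h | h | h
    · left; exact h
    · right; exact h
    · exfalso
      apply hye
      rw [← h]; group
    · exfalso
      apply hye
      have h1 : y * (e * z) = (e * z) * y := by rw [← h]; group
      have h2 : y * e * z = e * y * z := by
        calc y * e * z = y * (e * z) := mul_assoc _ _ _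
          _ = e * z * y := h1
          _ = e * (z * y) := mul_assoc _ _ _
          _ = e * (y * z) := by rw [d.zc y]
          _ = e * y * z := (mul_assoc _ _ _).symm
      exact mul_right_cancel h2
  by_cases hz : y * y = z
  · have ht : K6_tau z e c0 g = y := by
      unfold K6_tau
      rw [← hy, if_pos hz]
    refine ⟨1, Or.inl rfl, ?_, ?_, ?_⟩
    · rw [ht, hy, mul_one]
    · rw [ht, hz]
    · rw [ht]; exact hye
  · have h1 : y * y = 1 := hcl.resolve_right hz
    have ht : K6_tau z e c0 g = y * e := by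
      unfold K6_tau
      rw [← hy, if_neg hz]
    refine ⟨e, Or.inr (Or.inr (Or.inl rfl)), ?_, ?_, ?_⟩
    · rw [ht, hy]
    · rw [ht, K6_sq d hye, h1, one_mul]
    · rw [ht]
      intro h
      apply hye
      have : y * e * e = e * y * e := by rw [h, mul_assoc]
      exact mul_right_cancel this

theorem even_XN [Finite G] {z e c0 : G} (d : FD G z e) (hc : IsC0 z e c0) :
    Even ((Subgroup.zpowers '' XN z e).ncard) := by
  have hcE : ∀ ε, InE z e ε → c0 * ε = ε * c0 := by
    intro ε hε
    rcases hε with rfl | rfl | rfl | rfl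
    · simp
    · exact d.zc c0
    · exact hc.1
    · calc c0 * (e * z) = c0 * e * z := (mul_assoc _ _ _).symm
        _ = e * c0 * z := by rw [hc.1]
        _ = e * (c0 * z) := mul_assoc _ _ _
        _ = e * (z * c0) := by rw [d.zc c0]
        _ = e * z * c0 := (mul_assoc _ _ _).symm
  have hzE : InE z e z := Or.inr (Or.inl rfl)
  apply abs_even (XN z e) (K6_tau z e c0)
  · intro g hg
    obtain ⟨hg1, hg2⟩ := (K6_XN_iff d g).1 hg
    obtain ⟨ε, -, -, h3, h4⟩ := K6_tau_spec d hc hg1 hg2
    exact (K6_XN_iff d _).2 ⟨h3, h4⟩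
  · intro g hg h hh heq
    obtain ⟨hg1, hg2⟩ := (K6_XN_iff d g).1 hg
    obtain ⟨hh1, hh2⟩ := (K6_XN_iff d h).1 hh
    obtain ⟨ε, hε, ht, h3, h4⟩ := K6_tau_spec d hc hg1 hg2
    obtain ⟨ε2, hε2, ht2, h32, h42⟩ := K6_tau_spec d hc hh1 hh2
    have hmem : h ∈ Subgroup.zpowers (K6_tau z e c0 g) := heq ▸ Subgroup.mem_zpowers h
    obtain ⟨ε1, hε1, hh3⟩ : ∃ ε1, InE z e ε1 ∧ h = g * c0 * ε1 := by
      rcases K6_gen d h3 hmem hh1 with h5 | h5
      · exact ⟨ε, hε, by rw [h5, ht]⟩
      · exact ⟨ε * z, K6_mul d hε hzE, by rw [h5, ht, mul_assoc]⟩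
    have hth : K6_tau z e c0 h = g * ((c0 * c0) * (ε1 * ε2)) := by
      rw [ht2, hh3]
      calc g * c0 * ε1 * c0 * ε2 = g * c0 * (ε1 * c0) * ε2 := by group
        _ = g * c0 * (c0 * ε1) * ε2 := by rw [hcE ε1 hε1]
        _ = _ := by group
    have hE3 : InE z e ((c0 * c0) * (ε1 * ε2)) := K6_mul d hc.2.2.1 (K6_mul d hε1 hε2)
    have hA := K6_A d hg1 hg2 hE3 (by rw [← hth]; exact h32)
    have hmem2 : K6_tau z e c0 h ∈ Subgroup.zpowers g := by
      rw [hth]
      rcases hA with h6 | h6
      · rw [h6, mul_one]; exact Subgroup.mem_zpowers g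
      · rw [h6, ← hg1]
        exact Subgroup.mul_mem _ (Subgroup.mem_zpowers g)
          (Subgroup.mul_mem _ (Subgroup.mem_zpowers g) (Subgroup.mem_zpowers g))
    have ho1 : orderOf (K6_tau z e c0 h) = 2 ^ 2 := ((K6_XN_iff d _).2 ⟨h32, h42⟩).1
    exact zpowers_eq_of_mem hmem2 (ho1.trans hg.1.symm)
  · intro g hg heq
    obtain ⟨hg1, hg2⟩ := (K6_XN_iff d g).1 hg
    obtain ⟨ε, hε, ht, h3, h4⟩ := K6_tau_spec d hc hg1 hg2
    have hmem : K6_tau z e c0 g ∈ Subgroup.zpowers g := heq ▸ Subgroup.mem_zpowers _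
    apply hc.2.1
    have hεi : InE z e ε⁻¹ := by
      have : ε * ε = 1 := by
        rcases hε with rfl | rfl | rfl | rfl
        · simp
        · exact d.z2
        · exact d.e2
        · calc e * z * (e * z) = e * (z * e) * z := by group
            _ = e * (e * z) * z := by rw [d.zc e]
            _ = (e * e) * (z * z) := by group
            _ = 1 := by rw [d.e2, d.z2, one_mul]
      rw [inv_eq_of_mul_eq_one_left this]; exact hε
    rcases K6_gen d hg1 hmem h3 with h5 | h5
    · rw [ht, mul_assoc] at h5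
      have h6 : c0 * ε = 1 := mul_left_cancel (h5.trans (mul_one g).symm)
      rw [eq_inv_of_mul_eq_one_left h6]; exact hεi
    · rw [ht, mul_assoc] at h5
      have h6 : c0 * ε = z := mul_left_cancel h5
      have h7 : c0 = z * ε⁻¹ := by rw [← h6]; group
      rw [h7]; exact K6_mul d hzE hεi

end Cfsg.Agent.Lib.Helper98.Kul2
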